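import Mathlib
import Cfsg.Agent.H958.SixC.Conc
import Cfsg.Agent.H203.E6.Strong
import Cfsg.Agent.H905.E6T.Base

/-!
# S5927, S5928, `p = 2`, three-fold cover of `A₆`, BOX A: the cubic form on stable subspaces of dimension three (helper65)

* `cr_ne` : `cr` is not 0 on a stable subspace of dimension 3;
* `ann` : a vector annihilated by a stable subspace of dimension 3 is 0.
-/

set_option autoImplicit false

namespace Cfsg.Agent.H65.SixA

open Cfsg Cfsg.Lie Module Equiv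
open Cfsg.Agent.ChevalleyStructure.E6Min.Tables Cfsg.Agent.ChevalleyStructure.E6Min.Basic
  Cfsg.Agent.ChevalleyStructure.E6Min.Adjoint
open Cfsg.Agent.H952.F4 (ev es matRep sh cr tf MaxAlt)
open Cfsg.Agent.H952.F4.Jord
open Cfsg.Agent.H905.E6T (sh_zero cr_zero_left cr_zero_right tf_zero_left tf_zero_right ts_span)
open Cfsg.Agent.H163.E6 Cfsg.Agent.H163.E6.SixC

universe u

variable {F : Type u} [Field F]

/-- the dual module -/
theorem partner {ρ : Representation F ↥(Zgrp F) (I27 → F)} (hρ : ρ = V F ∨ ρ = V' F) :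
    ∃ ρ' : Representation F ↥(Zgrp F) (I27 → F), (ρ' = V F ∨ ρ' = V' F) ∧
      (∀ g x, sh (ρ g x) = ρ' g (sh x)) ∧ ∀ g x y, cr (ρ g x) (ρ g y) = ρ' g (cr x y) := by
  rcases hρ with rfl | rfl
  · exact ⟨V' F, Or.inr rfl, Act.sh_act, Act.cr_act⟩
  · exact ⟨V F, Or.inl rfl, Act.sh_act', Act.cr_act'⟩

theorem rho_inv {ρ : Representation F ↥(Zgrp F) (I27 → F)} (g : ↥(Zgrp F)) (x : I27 → F) : ρ g (ρ g⁻¹ x) = x := by
  rw [← Module.End.mul_apply, ← map_mul, mul_inv_cancel, map_one, Module.End.one_apply]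

theorem span_stab {φ : ↥(alternatingGroup (Fin 6)) →* ↥(chevE6.group F)}
    {ρ : Representation F ↥(Zgrp F) (I27 → F)} {S : Set (I27 → F)}
    (h : ∀ g, ad F g ∈ φ.range → ∀ s ∈ S, ρ g s ∈ S) : Stab ρ φ.range (Submodule.span F S) := by
  intro g hg w hw
  have h1 : Submodule.span F S ≤ (Submodule.span F S).comap (ρ g) :=
    Submodule.span_le.2 fun s hs => Submodule.subset_span (h g hg s hs)
  exact h1 hw

theorem one_span (x : I27 → F) : finrank F ↥(Submodule.span F {x}) ≤ 1 := by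
  have h1 := finrank_span_le_card (R := F) ({x} : Set (I27 → F))
  simpa using h1

/-- small subspaces: the polynomial identities -/
theorem le_one {U : Submodule F (I27 → F)} {x : I27 → F} {c : F} (hc : c ≠ 0) (h : ∀ y ∈ U, ∃ d : F, c • y = d • x) :
    finrank F ↥U ≤ 1 := by
  have h1 : U ≤ Submodule.span F {x} := by
    intro y hy
    obtain ⟨d, hd⟩ := h y hy
    refine Submodule.mem_span_singleton.2 ⟨c⁻¹ * d, ?_⟩
    rw [mul_smul, ← hd, smul_smul, inv_mul_cancel₀ hc, one_smul]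
  exact (Submodule.finrank_mono h1).trans (one_span x)

variable {φ : ↥(alternatingGroup (Fin 6)) →* ↥(chevE6.group F)} {H : Subgroup ↥(chevE6.group F)}

/-- totally singular stable subspaces are 0 -/
theorem ts_bot (hS : Sit H 6 φ) (hd : Div3 φ) {ρ : Representation F ↥(Zgrp F) (I27 → F)}
    (hρ : ρ = V F ∨ ρ = V' F) {W : Submodule F (I27 → F)} (hW : Stab ρ φ.range W) (ht : TS W) : W = ⊥ := by
  have h1 := H203.E6.finrank_le_six (W := W) fun x hx => (H203.E6.singular_iff x).2 (ht.1 x hx)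
  have h2 := hd ρ hρ W hW
  have h3 : finrank F ↥W = 0 ∨ finrank F ↥W = 3 ∨ finrank F ↥W = 6 := by omega
  rcases h3 with h3 | h3 | h3
  · exact Submodule.finrank_eq_zero.1 h3
  · exact absurd ht (hS.no_three (Or.inl (by norm_num)) ρ hρ W hW h3)
  · exact absurd ht (hS.no_six ρ hρ W hW h3)

/-- the subspace spanned by the `sh w` -/
def shW (W : Submodule F (I27 → F)) : Submodule F (I27 → F) := Submodule.span F (Set.range fun w : ↥W => sh (w : I27 → F))

theorem sh_mem {W : Submodule F (I27 → F)} {w : I27 → F} (hw : w ∈ W) : sh w ∈ shW W :=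
  Submodule.subset_span ⟨⟨w, hw⟩, rfl⟩

theorem stab_shW {ρ ρ' : Representation F ↥(Zgrp F) (I27 → F)} (hsh : ∀ g x, sh (ρ g x) = ρ' g (sh x))
    {W : Submodule F (I27 → F)} (hW : Stab ρ φ.range W) : Stab ρ' φ.range (shW W) := by
  apply span_stab
  rintro g hg _ ⟨w, rfl⟩
  exact ⟨⟨ρ g w, hW g hg w w.2⟩, hsh g w⟩

theorem cr_of_sh {W : Submodule F (I27 → F)} (h : ∀ w ∈ W, sh w = 0) : TS W := by
  refine ⟨h, fun x hx y hy => ?_⟩
  unfold Cfsg.Agent.H952.F4.cr
  rw [h _ (W.add_mem hx hy), h x hx, h y hy, sub_zero, sub_zero]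

theorem shW_ne (hS : Sit H 6 φ) (hd : Div3 φ) {ρ : Representation F ↥(Zgrp F) (I27 → F)}
    (hρ : ρ = V F ∨ ρ = V' F) {W : Submodule F (I27 → F)} (hW : Stab ρ φ.range W) (hW0 : W ≠ ⊥) : shW W ≠ ⊥ := by
  intro h
  refine hW0 (ts_bot hS hd hρ hW (cr_of_sh fun w hw => ?_))
  have h1 := sh_mem hw
  rwa [h, Submodule.mem_bot] at h1

theorem cr_ne (hS : Sit H 6 φ) (hd : Div3 φ) {ρ : Representation F ↥(Zgrp F) (I27 → F)} (hρ : ρ = V F ∨ ρ = V' F)
    {W : Submodule F (I27 → F)} (hW : Stab ρ φ.range W) (h3 : 2 ≤ finrank F ↥W) : ∃ x ∈ W, ∃ y ∈ W, cr x y ≠ 0 := by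
  by_contra hcon
  push Not at hcon
  obtain ⟨ρ', hρ', hsh, hcr⟩ := partner hρ
  have h1 : ∀ x ∈ W, ∀ y ∈ W, cubicT x • y = (-tf (sh x) y) • x := by
    intro x hx y hy
    have h2 := cr_sh_cr x y
    rw [hcon x hx y hy, cr_zero_right] at h2
    rw [neg_smul, eq_neg_iff_add_eq_zero, ← h2]
  have hN : ∀ x ∈ W, cubicT x = 0 := by
    intro x hx
    by_contra h0
    have := le_one h0 fun y hy => ⟨_, h1 x hx y hy⟩
    omega
  have hT : ∀ x ∈ W, ∀ y ∈ W, tf (sh x) y = 0 := by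
    intro x hx y hy
    by_cases h0 : x = 0
    · rw [h0, sh_zero, tf_zero_left]
    · have h2 := h1 x hx y hy
      rw [hN x hx, zero_smul, eq_comm, smul_eq_zero] at h2
      exact neg_eq_zero.1 (h2.resolve_right h0)
  have hts : TS (shW W) := by
    refine ts_span (fun w => ?_) fun w v => ?_
    · rw [sh_sh, hN w w.2, zero_smul]
    · have h2 := sh_cr (w : I27 → F) v
      rw [hcon w w.2 v v.2, sh_zero, zero_add, hT w w.2 v v.2, tf_comm, hT v v.2 w w.2, zero_smul, zero_smul,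
        add_zero] at h2
      exact h2
  refine shW_ne hS hd hρ hW ?_ (ts_bot hS hd hρ' (stab_shW hsh hW) hts)
  rintro rfl
  rw [finrank_bot] at h3
  omega

/-- the annihilator -/
def annih (W : Submodule F (I27 → F)) : Submodule F (I27 → F) where
  carrier := {w | ∀ u ∈ W, cr u w = 0}
  zero_mem' := fun u _ => cr_zero_right u
  add_mem' := fun {a b} ha hb u hu => by rw [cr_add_right, ha u hu, hb u hu, add_zero]
  smul_mem' := fun c a ha u hu => by rw [cr_smul_right, ha u hu, smul_zero]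

theorem mem_annih {W : Submodule F (I27 → F)} {w : I27 → F} : w ∈ annih W ↔ ∀ u ∈ W, cr u w = 0 := Iff.rfl

theorem stab_annih {ρ ρ' : Representation F ↥(Zgrp F) (I27 → F)}
    (hcr : ∀ g x y, cr (ρ g x) (ρ g y) = ρ' g (cr x y)) {W : Submodule F (I27 → F)} (hW : Stab ρ φ.range W) :
    Stab ρ φ.range (annih W) := by
  intro g hg w hw u hu
  have h1 : ρ g⁻¹ u ∈ W := hW g⁻¹ (by rw [map_inv]; exact inv_mem hg) u hu
  rw [← rho_inv (ρ := ρ) g u, hcr, hw _ h1, map_zero]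

theorem annih_bot (hS : Sit H 6 φ) (hd : Div3 φ) {ρ : Representation F ↥(Zgrp F) (I27 → F)} (hρ : ρ = V F ∨ ρ = V' F)
    {W : Submodule F (I27 → F)} (hW : Stab ρ φ.range W) (hW0 : W ≠ ⊥) : annih W = ⊥ := by
  obtain ⟨ρ', hρ', hsh, hcr⟩ := partner hρ
  have hK := stab_annih hcr hW
  by_contra hK0
  have h3 : 3 ≤ finrank F ↥(annih W) := by
    have h1 := hd ρ hρ _ hK
    have h2 : finrank F ↥(annih W) ≠ 0 := fun h => hK0 (Submodule.finrank_eq_zero.1 h)
    omega
  have h1 : ∀ u ∈ W, ∀ w ∈ annih W, cubicT u • w = (-tf (sh u) w) • u := by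
    intro u hu w hw
    have h2 := cr_sh_cr u w
    rw [hw u hu, cr_zero_right] at h2
    rw [neg_smul, eq_neg_iff_add_eq_zero, ← h2]
  have hN : ∀ u ∈ W, cubicT u = 0 := by
    intro u hu
    by_contra h0
    have := le_one h0 fun y hy => ⟨_, h1 u hu y hy⟩
    omega
  have hT : ∀ u ∈ W, ∀ w ∈ annih W, tf (sh u) w = 0 := by
    intro x hx y hy
    by_cases h0 : x = 0
    · rw [h0, sh_zero, tf_zero_left]
    · have h2 := h1 x hx y hy
      rw [hN x hx, zero_smul, eq_comm, smul_eq_zero] at h2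
      exact neg_eq_zero.1 (h2.resolve_right h0)
  have h4 : ∀ u ∈ W, ∀ w ∈ annih W, ∀ y, cr (sh u) (cr w y) = tf (sh u) y • w := by
    intro u hu w hw y
    have h2 := cr_cr u w y
    rw [hw u hu, cr_zero_left, zero_add, hT u hu w hw, zero_smul, zero_add, ← tf_cr, hw u hu, tf_zero_left, zero_smul,
      add_zero] at h2
    exact h2
  have h5 : ∀ u ∈ W, sh u ≠ 0 → ∀ w ∈ annih W, ∃ c : F, sh w = c • sh u := by
    intro u hu hu0 w hw
    obtain ⟨y, hy⟩ : ∃ y, tf (sh u) y ≠ 0 := by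
      by_contra hcon
      push Not at hcon
      exact hu0 (tf_nondeg hcon)
    have h2 := sh_cr (sh u) (cr w y)
    rw [h4 u hu w hw y, sh_sh, hN u hu, zero_smul, cr_zero_left, add_zero, tf_zero_left, zero_smul, zero_add,
      sh_smul] at h2
    refine ⟨(tf (sh u) y ^ 2)⁻¹ * tf (sh u) (sh (cr w y)), ?_⟩
    rw [mul_smul, ← h2, smul_smul, inv_mul_cancel₀ (pow_ne_zero 2 hy), one_smul]
  -- two independent vectors `sh u`
  have h6 : 3 ≤ finrank F ↥(shW W) := by
    have h1 := hd ρ' hρ' _ (stab_shW hsh hW)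
    have h2 : finrank F ↥(shW W) ≠ 0 := fun h => shW_ne hS hd hρ hW hW0 (Submodule.finrank_eq_zero.1 h)
    omega
  obtain ⟨u1, hu1, h7⟩ : ∃ u ∈ W, sh u ≠ 0 := by
    by_contra hcon
    push Not at hcon
    refine shW_ne hS hd hρ hW hW0 ?_
    rw [shW, Submodule.span_eq_bot]
    rintro _ ⟨w, rfl⟩
    exact hcon w w.2
  obtain ⟨u2, hu2, h8⟩ : ∃ u ∈ W, sh u ∉ Submodule.span F {sh u1} := by
    by_contra hcon
    push Not at hcon
    have h9 : shW W ≤ Submodule.span F {sh u1} := by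
      rw [shW, Submodule.span_le]
      rintro _ ⟨w, rfl⟩
      exact hcon w w.2
    have h10 := (Submodule.finrank_mono h9).trans (one_span (sh u1))
    omega
  have h9 : sh u2 ≠ 0 := fun h => h8 (h ▸ Submodule.zero_mem _)
  have h10 : ∀ w ∈ annih W, sh w = 0 := by
    intro w hw
    obtain ⟨c1, hc1⟩ := h5 u1 hu1 h7 w hw
    obtain ⟨c2, hc2⟩ := h5 u2 hu2 h9 w hw
    by_cases hc : c2 = 0
    · rw [hc2, hc, zero_smul]
    · exfalso
      apply h8
      refine Submodule.mem_span_singleton.2 ⟨c2⁻¹ * c1, ?_⟩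
      rw [mul_smul, ← hc1, hc2, smul_smul, inv_mul_cancel₀ hc, one_smul]
  exact hK0 (ts_bot hS hd hρ hK (cr_of_sh h10))

end Cfsg.Agent.H65.SixA

namespace Cfsg.Agent.H163.E6.SixC

open Cfsg Cfsg.Lie Module Equiv
open Cfsg.Agent.ChevalleyStructure.E6Min.Tables Cfsg.Agent.ChevalleyStructure.E6Min.Basic
  Cfsg.Agent.ChevalleyStructure.E6Min.Adjoint
open Cfsg.Agent.H952.F4 (ev es matRep sh cr tf MaxAlt)

universe u

variable {F : Type u} [Field F] {H : Subgroup ↥(chevE6.group F)} {φ : ↥(alternatingGroup (Fin 6)) →* ↥(chevE6.group F)}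

/-- `cr` is not 0 on a stable subspace of dimension three -/
theorem cr_ne (hS : Sit H 6 φ) (hd : Div3 φ) {ρ : Representation F ↥(Zgrp F) (I27 → F)} (hρ : ρ = V F ∨ ρ = V' F)
    {W : Submodule F (I27 → F)} (hW : Stab ρ φ.range W) (h3 : finrank F ↥W = 3) : ∃ x ∈ W, ∃ y ∈ W, cr x y ≠ 0 :=
  H65.SixA.cr_ne hS hd hρ hW (by omega)

/-- the annihilator of a stable subspace of dimension three is 0 -/
theorem ann (hS : Sit H 6 φ) (hd : Div3 φ) {ρ : Representation F ↥(Zgrp F) (I27 → F)} (hρ : ρ = V F ∨ ρ = V' F)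
    {W : Submodule F (I27 → F)} (hW : Stab ρ φ.range W) (h3 : finrank F ↥W = 3) {w : I27 → F}
    (hw : ∀ u ∈ W, cr u w = 0) : w = 0 := by
  have h1 : w ∈ H65.SixA.annih W := hw
  rwa [H65.SixA.annih_bot hS hd hρ hW (by rintro rfl; rw [finrank_bot] at h3; omega), Submodule.mem_bot] at h1

end Cfsg.Agent.H163.E6.SixC
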