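import Mathlib
import Cfsg.Agent.H65.E6Emb

/-!
# S5927, S5928: the involution attached to an element of order three of type `(9, 9, 9 | 30)` (helper65)

* `L_fix_iff` : `L g c = c` if and only if `g` commutes with `comb c`;
* `uniq_diag` : an involution which acts trivially on the fixed points of a diagonal element `diag (z ^ b)` of order three
  on `V` and `L` is diagonal, given by a function `s : I27 → ZMod 2` with combinatorial properties;
* `Five x`, `descend`, `descend_closed` : the existence and the uniqueness of the involution over the algebraic closure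
  imply the same over the finite field.
-/

set_option autoImplicit false

namespace Cfsg.Agent.H65.E6Uniq

open Cfsg Cfsg.Lie Module
open Cfsg.Agent.ChevalleyStructure
open Cfsg.Agent.ChevalleyStructure.E6Min.Tables Cfsg.Agent.ChevalleyStructure.E6Min.Basic
  Cfsg.Agent.ChevalleyStructure.E6Min.Adjoint Cfsg.Agent.ChevalleyStructure.E6Min.Torus
  Cfsg.Agent.ChevalleyStructure.E6Min.Forms
open Cfsg.Agent.H163.E6
open Cfsg.Agent.H952.F4 (ev es matRep)
open Cfsg.Agent.H65.E6Emb
open scoped Matrix

universe u v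

section diag

variable {K : Type u} [Field K]

/-- the fixed vectors in the adjoint module -/
theorem L_fix_iff (g : ↥(Zgrp K)) (c : chevE6.Idx → K) :
    L K g c = c ↔ ((g : GL I27 K) : Matrix I27 I27 K) * comb c = comb c * ((g : GL I27 K) : Matrix I27 I27 K) := by
  have h : ((g : GL I27 K) : Matrix I27 I27 K) * comb c = comb (L K g c) * ((g : GL I27 K) : Matrix I27 I27 K) := by
    rw [E6Emb.L_apply]
    exact comb_mul_of (ad_P g) c
  rw [h]
  constructor
  · intro h1
    rw [h1]
  · intro h1
    apply comb_injective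
    have h2 : ((g : GL I27 K) : Matrix I27 I27 K) * (((g : GL I27 K)⁻¹ : GL I27 K) : Matrix I27 I27 K) = 1 := by
      rw [← Units.val_mul, mul_inv_cancel, Units.val_one]
    calc comb (L K g c) = comb (L K g c) * (((g : GL I27 K) : Matrix I27 I27 K) *
            (((g : GL I27 K)⁻¹ : GL I27 K) : Matrix I27 I27 K)) := by rw [h2, mul_one]
      _ = comb c * (((g : GL I27 K) : Matrix I27 I27 K) *
            (((g : GL I27 K)⁻¹ : GL I27 K) : Matrix I27 I27 K)) := by rw [← mul_assoc, h1, mul_assoc]
      _ = comb c := by rw [h2, mul_one]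

theorem comb_inl (i : Fin chevE6.rank) : comb (Pi.single (Sum.inl i) (1 : K)) = Hm K i.val := by
  rw [comb_def, Finset.sum_eq_single (Sum.inl i)]
  · rw [Pi.single_eq_same, one_smul, B_inl]
  · intro u _ hu
    rw [Pi.single_eq_of_ne hu, zero_smul]
  · intro h
    exact absurd (Finset.mem_univ _) h

theorem comb_inr (r : Fin chevE6.nroots) : comb (Pi.single (Sum.inr r) (1 : K)) = Nm K r.val := by
  rw [comb_def, Finset.sum_eq_single (Sum.inr r)]
  · rw [Pi.single_eq_same, one_smul, B_inr]
  · intro u _ hu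
    rw [Pi.single_eq_of_ne hu, zero_smul]
  · intro h
    exact absurd (Finset.mem_univ _) h

theorem sg_ne {r : ℕ} {x : I27} (h : sg r x ≠ 0) : ((sg r x : ℤ) : K) ≠ 0 := by
  intro h1
  have h2 := sg_sq r x h
  have h3 : ((sg r x : ℤ) : K) * ((sg r x : ℤ) : K) = 1 := by
    rw [← Int.cast_mul, h2, Int.cast_one]
  rw [h1, zero_mul] at h3
  exact zero_ne_one h3

/-- a diagonal element fixes the Cartan subalgebra -/
theorem L_diag_inl {y : ↥(Zgrp K)} {d : I27 → K} (hy : ((y : GL I27 K) : Matrix I27 I27 K) = Matrix.diagonal d)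
    (i : Fin chevE6.rank) : L K y (Pi.single (Sum.inl i) 1) = Pi.single (Sum.inl i) 1 := by
  rw [L_fix_iff, comb_inl, hy]
  unfold Hm
  rw [Matrix.diagonal_mul_diagonal, Matrix.diagonal_mul_diagonal]
  congr 1
  funext x
  exact mul_comm _ _

/-- a diagonal element fixes the root vectors of level zero -/
theorem L_diag_inr {y : ↥(Zgrp K)} {d : I27 → K} (hy : ((y : GL I27 K) : Matrix I27 I27 K) = Matrix.diagonal d)
    (hd : ∀ x, d x ≠ 0) (r : Fin chevE6.nroots) (h : d (row r.val) = d (sr r.val (row r.val))) :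
    L K y (Pi.single (Sum.inr r) 1) = Pi.single (Sum.inr r) 1 := by
  set c' := L K y (Pi.single (Sum.inr r) 1) with hc'
  have h1 : ((y : GL I27 K) : Matrix I27 I27 K) * comb (Pi.single (Sum.inr r) (1 : K)) =
      comb c' * ((y : GL I27 K) : Matrix I27 I27 K) := by
    rw [hc', E6Emb.L_apply]
    exact comb_mul_of (ad_P y) _
  rw [comb_inr, hy] at h1
  have h2 : ∀ x x', d x * Nm K r.val x x' = comb c' x x' * d x' := by
    intro x x'
    have h3 := congrFun (congrFun h1 x) x'
    rwa [Matrix.diagonal_mul, Matrix.mul_diagonal] at h3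
  have hr : c' (Sum.inr r) = 1 := by
    have h3 := h2 (row r.val) (sr r.val (row r.val))
    rw [comb_apply_row, Nm_apply, if_pos rfl, ← h] at h3
    have h4 := sg_ne (K := K) (row_spec (lt72 r)).1
    have h5 : (c' (Sum.inr r) - 1) * (d (row r.val) * ((sg r.val (row r.val) : ℤ) : K)) = 0 := by
      linear_combination -h3
    exact sub_eq_zero.1 ((mul_eq_zero.1 h5).resolve_right (mul_ne_zero (hd _) h4))
  have hs : ∀ s : Fin chevE6.nroots, s ≠ r → c' (Sum.inr s) = 0 := by
    intro s hs
    have h3 := h2 (row s.val) (sr s.val (row s.val))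
    rw [comb_apply_row, Nm_apply] at h3
    have h4 : (if sr s.val (row s.val) = sr r.val (row s.val) then ((sg r.val (row s.val) : ℤ) : K) else 0) = 0 := by
      rcases (row_spec (lt72 s)).2.2 r.val (lt72 r) (fun e => hs (Fin.ext e.symm)) with h5 | h5
      · rw [h5]; simp
      · rw [if_neg (Ne.symm h5)]
    rw [h4, mul_zero] at h3
    have h5 := sg_ne (K := K) (row_spec (lt72 s)).1
    rcases mul_eq_zero.1 h3.symm with h6 | h6
    · exact (mul_eq_zero.1 h6).resolve_right h5
    · exact absurd h6 (hd _)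
  have hdiag : ∀ x, comb c' x x = 0 := by
    intro x
    have h3 := h2 x x
    have h4 : Nm K r.val x x = 0 := by
      rw [Nm_apply]
      rcases row_diag (lt72 r) x with h5 | h5
      · rw [h5]; simp
      · rw [if_neg h5]
    rw [h4, mul_zero] at h3
    exact (mul_eq_zero.1 h3.symm).resolve_right (hd x)
  have hcar : (fun row => Sum.elim (fun i => c' (Sum.inl i)) (fun _ => (0 : K)) row : chevE6.Idx → K) = 0 := by
    apply comb_injective
    have h3 : comb (0 : chevE6.Idx → K) = 0 := by
      rw [comb_def]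
      simp
    rw [h3]
    ext x x'
    rw [Matrix.zero_apply]
    by_cases hx : x = x'
    · subst hx
      rw [comb_apply_diag, ← hdiag x, comb_apply_diag]
      rfl
    · rw [comb_split, Matrix.add_apply, Matrix.sum_apply, Matrix.sum_apply]
      have e1 : ∀ i : Fin chevE6.rank, (Sum.elim (fun i => c' (Sum.inl i)) (fun _ => (0 : K))
          (Sum.inl i : chevE6.Idx) • Hm K i.val) x x' = 0 := by
        intro i
        rw [Matrix.smul_apply, Hm_apply, if_neg hx, smul_zero]
      have e2 : ∀ s : Fin chevE6.nroots, (Sum.elim (fun i => c' (Sum.inl i)) (fun _ => (0 : K))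
          (Sum.inr s : chevE6.Idx) • Nm K s.val) x x' = 0 := by
        intro s
        rw [Sum.elim_inr, zero_smul, Matrix.zero_apply]
      rw [Finset.sum_eq_zero (fun i _ => e1 i), Finset.sum_eq_zero (fun s _ => e2 s), add_zero]
  funext row
  rcases row with i | s
  · rw [Pi.single_eq_of_ne (by simp)]
    exact congrFun hcar (Sum.inl i)
  · by_cases h3 : s = r
    · rw [h3, Pi.single_eq_same, hr]
    · rw [Pi.single_eq_of_ne (fun e => h3 (Sum.inr.inj e)), hs s h3]

theorem wt_all : allLt 27 (fun i => allLt 27 fun j => (i == j) ||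
    !(allLt 6 fun k => (lbN i k == lbN j k))) = true := by decide +kernel

theorem wt_bound : allLt 27 (fun i => allLt 6 fun k => (lbN i k == 0) || (lbN i k == 1) || (lbN i k == -1)) = true := by
  decide +kernel

theorem wt_cases (x : I27) {k : ℕ} (hk : k < 6) : wt x k = 0 ∨ wt x k = 1 ∨ wt x k = -1 := by
  have h := allLt_spec (allLt_spec wt_bound _ (code_lt x)) k hk
  simp only [Bool.or_eq_true, beq_iff_eq] at h
  rcases h with (h | h) | h
  · exact Or.inl h
  · exact Or.inr (Or.inl h)
  · exact Or.inr (Or.inr h)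

theorem allLt_true {n : ℕ} {p : ℕ → Bool} (h : ∀ k < n, p k = true) : allLt n p = true := by
  induction n with
  | zero => rfl
  | succ n ih =>
    show (p n && allLt n p) = true
    rw [h n (Nat.lt_succ_self n), ih (fun k hk => h k (Nat.lt_succ_of_lt hk))]
    rfl

/-- the weights separate the coordinates -/
theorem wt_sep {x y : I27} (h : x ≠ y) : ∃ k < 6, wt x k ≠ wt y k := by
  by_contra hne
  push Not at hne
  have h1 := allLt_spec (allLt_spec wt_all _ (code_lt x)) _ (code_lt y)
  have h2 : (allLt 6 fun k => (lbN (code x) k == lbN (code y) k)) = true :=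
    allLt_true fun k hk => beq_iff_eq.2 (hne k hk)
  rw [h2] at h1
  simp only [Bool.or_eq_true, beq_iff_eq, Bool.not_true, Bool.false_eq_true, or_false] at h1
  exact h (code_injective h1)

/-- the weights separate the coordinates, characteristic different from 2 -/
theorem wt_sep' (h2 : (2 : K) ≠ 0) {x y : I27} (h : x ≠ y) : ∃ k < 6, ((wt x k : ℤ) : K) ≠ ((wt y k : ℤ) : K) := by
  obtain ⟨k, hk, hne⟩ := wt_sep h
  refine ⟨k, hk, fun h3 => hne ?_⟩
  rcases wt_cases x hk with h4 | h4 | h4 <;> rcases wt_cases y hk with h5 | h5 | h5 <;> rw [h4, h5] at h3 ⊢ <;>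
    simp only [Int.cast_zero, Int.cast_one, Int.cast_neg] at h3
  · exact absurd h3 zero_ne_one
  · exact absurd h3.symm (neg_ne_zero.2 one_ne_zero)
  · exact absurd h3 one_ne_zero
  · exfalso
    apply h2
    linear_combination h3
  · exact absurd h3 (neg_ne_zero.2 one_ne_zero)
  · exfalso
    apply h2
    linear_combination -h3

/-- an element which fixes the Cartan subalgebra is diagonal -/
theorem diag_of_fix (h2 : (2 : K) ≠ 0) {g : ↥(Zgrp K)}
    (h : ∀ i : Fin chevE6.rank, L K g (Pi.single (Sum.inl i) 1) = Pi.single (Sum.inl i) 1) :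
    ((g : GL I27 K) : Matrix I27 I27 K) = Matrix.diagonal fun x => ((g : GL I27 K) : Matrix I27 I27 K) x x := by
  ext x y
  rw [Matrix.diagonal_apply]
  split_ifs with hxy
  · rw [hxy]
  · obtain ⟨k, hk, hne⟩ := wt_sep' (K := K) h2 hxy
    have h3 := (L_fix_iff g _).1 (h ⟨k, hk⟩)
    rw [comb_inl] at h3
    have h4 := congrFun (congrFun h3 x) y
    unfold Hm at h4
    rw [Matrix.mul_diagonal, Matrix.diagonal_mul] at h4
    have h5 : ((g : GL I27 K) : Matrix I27 I27 K) x y * (((wt x k : ℤ) : K) - ((wt y k : ℤ) : K)) = 0 := by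
      linear_combination -h4
    exact (mul_eq_zero.1 h5).resolve_right (sub_ne_zero.2 hne)

theorem mulVec_e {g : ↥(Zgrp K)} {d : I27 → K} (hg : ((g : GL I27 K) : Matrix I27 I27 K) = Matrix.diagonal d) (x : I27) :
    ((g : GL I27 K) : Matrix I27 I27 K) *ᵥ e K x = d x • e K x := by
  rw [hg]
  ext y
  rw [Matrix.mulVec_diagonal, Pi.smul_apply, smul_eq_mul, e_apply]
  by_cases h : y = x
  · rw [h]
  · rw [if_neg h, mul_zero, mul_zero]

/-- **Uniqueness, combinatorial form.** -/
theorem uniq_diag {K : Type u} [Field K] (p : ℕ) [CharP K p] (hp : 5 ≤ p) {z : K} (hz : IsPrimitiveRoot z 3)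
    {b : I27 → ZMod 3} {y : ↥(Zgrp K)}
    (hy : ((y : GL I27 K) : Matrix I27 I27 K) = Matrix.diagonal fun m => z ^ (b m).val)
    {τ : ↥(Zgrp K)} (h1 : τ * τ = 1) (h2 : τ ≠ 1) (hL : ∀ X, L K y X = X → L K τ X = X)
    (hV : ∀ v, V K y v = v → V K τ v = v) :
    ∃ s : I27 → ZMod 2, ((τ : GL I27 K) : Matrix I27 I27 K) = Matrix.diagonal (fun m => (-1) ^ (s m).val) ∧
      (∀ m m', rel m m' = 2 → s m + s m' + s (th m m') = 0) ∧
      (∀ m, b m = 0 → s m = 0) ∧
      (∀ r < 72, b (row r) = b (sr r (row r)) → ∀ m, sg r m ≠ 0 → s (sr r m) = s m) ∧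
      (∃ m, s m ≠ 0) := by
  have hchar2 : (2 : K) ≠ 0 := by
    intro h0
    have h3 : ((2 : ℕ) : K) = 0 := by exact_mod_cast h0
    have h4 := (CharP.cast_eq_zero_iff K p 2).1 h3
    have := Nat.le_of_dvd (by norm_num) h4
    omega
  have hne : (-1 : K) ≠ 1 := by
    intro h0
    apply hchar2
    linear_combination -h0
  have hz0 : z ≠ 0 := hz.ne_zero (by norm_num)
  have hτ := diag_of_fix hchar2 (g := τ) (fun i => hL _ (L_diag_inl hy i))
  set t : I27 → K := fun x => ((τ : GL I27 K) : Matrix I27 I27 K) x x with ht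
  have htt : ∀ x, t x = 1 ∨ t x = -1 := by
    intro x
    have h3 := congrArg (fun g : ↥(Zgrp K) => ((g : GL I27 K) : Matrix I27 I27 K) x x) h1
    simp only [Subgroup.coe_mul, Units.val_mul, Subgroup.coe_one, Units.val_one, Matrix.one_apply_eq] at h3
    rw [hτ, Matrix.diagonal_mul_diagonal, Matrix.diagonal_apply_eq] at h3
    exact mul_self_eq_one_iff.1 h3
  classical
  let s : I27 → ZMod 2 := fun m => if t m = 1 then 0 else 1
  have hs : ∀ m, (-1 : K) ^ (s m).val = t m := by
    intro m
    rcases htt m with h3 | h3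
    · have h4 : s m = 0 := if_pos h3
      rw [h4, h3, ZMod.val_zero, pow_zero]
    · have h4 : s m = 1 := if_neg (by rw [h3]; exact hne)
      rw [h4, h3, ZMod.val_one, pow_one]
  have hs0 : ∀ m, s m = 0 ↔ t m = 1 := by
    intro m
    constructor
    · intro h3
      by_contra h4
      have h5 : s m = 1 := if_neg h4
      rw [h5] at h3
      exact one_ne_zero h3
    · intro h3
      exact if_pos h3
  have hs1 : ∀ m, s m = 1 ↔ t m = -1 := by
    intro m
    constructor
    · intro h3
      rcases htt m with h4 | h4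
      · rw [(hs0 m).2 h4] at h3
        exact absurd h3 zero_ne_one
      · exact h4
    · intro h3
      exact if_neg (by rw [h3]; exact hne)
  have hseq : ∀ m m', t m = t m' → s m = s m' := by
    intro m m' h3
    show (if t m = 1 then (0 : ZMod 2) else 1) = if t m' = 1 then 0 else 1
    rw [h3]
  refine ⟨s, ?_, ?_, ?_, ?_, ?_⟩
  · rw [hτ]
    congr 1
    funext m
    exact (hs m).symm
  · intro m m' hr
    have h3 := diag_rel (Cfsg.Agent.ChevalleyStructure.E6Min.Inv.Zgrp_le K τ.2) (d := t) (fun x => mulVec_e hτ x) hr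
    rcases htt m with h4 | h4 <;> rcases htt m' with h5 | h5 <;> rcases htt (th m m') with h6 | h6 <;>
      rw [h4, h5, h6] at h3
    · rw [(hs0 _).2 h4, (hs0 _).2 h5, (hs0 _).2 h6]; rfl
    · exact absurd h3 (by simpa using hne)
    · exact absurd h3 (by simpa using hne)
    · rw [(hs0 _).2 h4, (hs1 _).2 h5, (hs1 _).2 h6]; rfl
    · exact absurd h3 (by simpa using hne)
    · rw [(hs1 _).2 h4, (hs0 _).2 h5, (hs1 _).2 h6]; rfl
    · rw [(hs1 _).2 h4, (hs1 _).2 h5, (hs0 _).2 h6]; rfl
    · exact absurd h3 (by simpa using hne)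
  · intro m hm
    rw [hs0]
    have h3 : V K y (e K m) = e K m := by
      rw [V_apply, mulVec_e hy m, hm, ZMod.val_zero, pow_zero, one_smul]
    have h4 := hV _ h3
    rw [V_apply, mulVec_e hτ m] at h4
    have h5 := congrFun h4 m
    rw [Pi.smul_apply, e_apply, if_pos rfl, smul_eq_mul, mul_one] at h5
    exact h5
  · intro r hr hb m hm
    apply hseq
    have h3 : L K y (Pi.single (Sum.inr ⟨r, hr⟩) 1) = Pi.single (Sum.inr ⟨r, hr⟩) 1 :=
      L_diag_inr hy (fun x => pow_ne_zero _ hz0) ⟨r, hr⟩ (by
        show z ^ (b (row r)).val = z ^ (b (sr r (row r))).val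
        rw [hb])
    have h4 := (L_fix_iff τ _).1 (hL _ h3)
    rw [comb_inr, hτ] at h4
    have h5 := congrFun (congrFun h4 m) (sr r m)
    rw [Matrix.diagonal_mul, Matrix.mul_diagonal, Nm_apply, if_pos rfl] at h5
    have h6 := sg_ne (K := K) hm
    have h7 : (t (sr r m) - t m) * ((sg r m : ℤ) : K) = 0 := by linear_combination -h5
    exact sub_eq_zero.1 ((mul_eq_zero.1 h7).resolve_right h6)
  · by_contra hno
    push Not at hno
    apply h2
    apply Subtype.ext
    apply Units.ext
    rw [hτ, Subgroup.coe_one, Units.val_one]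
    have h3 : t = fun _ => 1 := funext fun m => (hs0 m).1 (hno m)
    rw [h3]
    exact Matrix.diagonal_one

end diag

/-! ### descent -/

/-- the existence and uniqueness of the involution attached to `x` -/
def Five {F : Type u} [Field F] (x : ↥(Zgrp F)) : Prop :=
  ∃ τ : ↥(Zgrp F), τ * τ = 1 ∧ τ ≠ 1 ∧ (∀ g, g * x = x * g → g * τ = τ * g) ∧
    (∀ X, L F x X = X → L F τ X = X) ∧ (∀ v, V F x v = v → V F τ v = v) ∧
    ∀ τ' : ↥(Zgrp F), τ' * τ' = 1 → τ' ≠ 1 → (∀ X, L F x X = X → L F τ' X = X) →
      (∀ v, V F x v = v → V F τ' v = v) → τ' = τ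

section descent

variable {F : Type u} {K : Type v} [Field F] [Field K] (f : F →+* K)

theorem fun_injective {n : Type*} {x y : n → F} (h : (fun i => f (x i)) = fun i => f (y i)) : x = y := by
  funext i
  exact f.injective (congrFun h i)

/-- if all fixed vectors of a matrix over the small field are fixed by another one, the same holds over the big field -/
theorem fix_map {n : Type*} [Fintype n] [DecidableEq n] {A B : Matrix n n F}
    (h : ∀ x, A *ᵥ x = x → B *ᵥ x = x) {y : n → K} (hy : (A.map f) *ᵥ y = y) : (B.map f) *ᵥ y = y := by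
  have h1 : y ∈ ext f (es (Matrix.toLin' A) 1) := by
    rw [ext_es, map_one]
    refine Module.End.mem_eigenspace_iff.2 ?_
    rw [Matrix.toLin'_apply, hy, one_smul]
  have h2 : ext f (es (Matrix.toLin' A) 1) ≤ es (Matrix.toLin' (B.map f)) 1 := by
    refine ext_le fun x hx => ?_
    have h3 : Matrix.toLin' A x = (1 : F) • x := Module.End.mem_eigenspace_iff.1 hx
    rw [Matrix.toLin'_apply, one_smul] at h3
    refine Module.End.mem_eigenspace_iff.2 ?_
    rw [Matrix.toLin'_apply, one_smul, map_mulVec, h x h3]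
  have h4 : Matrix.toLin' (B.map f) y = (1 : K) • y := Module.End.mem_eigenspace_iff.1 (h2 h1)
  rwa [Matrix.toLin'_apply, one_smul] at h4

theorem V_fix_map {x τ : ↥(Zgrp F)} (h : ∀ v, V F x v = v → V F τ v = v) (v : I27 → K)
    (hv : V K (emb f x) v = v) : V K (emb f τ) v = v := by
  rw [V_apply, coe_emb] at hv ⊢
  exact fix_map f (fun w hw => h w hw) hv

theorem L_fix_map {x τ : ↥(Zgrp F)} (h : ∀ v, L F x v = v → L F τ v = v) (v : chevE6.Idx → K)
    (hv : L K (emb f x) v = v) : L K (emb f τ) v = v := by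
  rw [E6Emb.L_apply, ad_emb] at hv ⊢
  refine fix_map f (fun w hw => ?_) hv
  have h1 := h w (by rw [E6Emb.L_apply]; exact hw)
  rwa [E6Emb.L_apply] at h1

/-- **Descent.** -/
theorem descend [Finite F] (hF : 3 ≤ Nat.card F) (s : K →+* K) (hs : ∀ t, s t = t ^ Nat.card F)
    (hsurj : Function.Surjective s) {x : ↥(Zgrp F)} (h : Five (emb f x)) : Five x := by
  have := Fintype.ofFinite F
  rw [Nat.card_eq_fintype_card] at hF
  have hs' : ∀ t, s t = t ^ Fintype.card F := fun t => by rw [hs, Nat.card_eq_fintype_card]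
  obtain ⟨τ, h1, h2, h3, h4, h5, h6⟩ := h
  have hx : emb s (emb f x) = emb f x := emb_frob f s hs' x
  have hinj : Function.Injective (emb s) := emb_injective s
  -- lifting vectors
  have hlift : ∀ {n : Type} (y : n → K), ∃ y0 : n → K, y = fun i => s (y0 i) := by
    intro n y
    choose g hg using hsurj
    exact ⟨fun i => g (y i), funext fun i => (hg (y i)).symm⟩
  have hτ : emb s τ = τ := by
    apply h6
    · rw [← map_mul, h1, map_one]
    · intro h7
      apply h2
      apply hinj
      rw [h7, map_one]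
    · intro X hX
      obtain ⟨X0, rfl⟩ := hlift X
      have h7 := hX
      rw [← hx, L_emb] at h7
      have h8 := h4 X0 (fun_injective s h7)
      rw [L_emb, h8]
    · intro v hv
      obtain ⟨v0, rfl⟩ := hlift v
      have h7 := hv
      rw [← hx, V_emb] at h7
      have h8 := h5 v0 (fun_injective s h7)
      rw [V_emb, h8]
  obtain ⟨τ0, rfl⟩ := exists_of_emb_eq f hF s hs' τ hτ
  have hfi := emb_injective f
  refine ⟨τ0, ?_, ?_, ?_, ?_, ?_, ?_⟩
  · apply hfi
    rw [map_mul, h1, map_one]
  · rintro rfl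
    exact h2 (map_one _)
  · intro g hg
    apply hfi
    rw [map_mul, map_mul]
    apply h3
    rw [← map_mul, ← map_mul, hg]
  · intro X hX
    apply fun_injective f
    rw [← L_emb]
    apply h4
    rw [L_emb, hX]
  · intro v hv
    apply fun_injective f
    rw [← V_emb]
    apply h5
    rw [V_emb, hv]
  · intro τ' h7 h8 h9 h10
    apply hfi
    apply h6
    · rw [← map_mul, h7, map_one]
    · intro h11
      apply h8
      apply hfi
      rw [h11, map_one]
    · exact L_fix_map f h9
    · exact V_fix_map f h10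

end descent

/-- **Descent from the algebraic closure.** -/
theorem descend_closed {F : Type u} [Field F] [Finite F] (hF : 3 ≤ Nat.card F)
    (h : ∀ x : ↥(Zgrp (AlgebraicClosure F)), x ^ 3 = 1 → ev (V (AlgebraicClosure F) x) 1 = 9 →
      ev (L (AlgebraicClosure F) x) 1 = 30 → Five x) :
    ∀ x : ↥(Zgrp F), x ^ 3 = 1 → ev (V F x) 1 = 9 → ev (L F x) 1 = 30 → Five x := by
  intro x h1 h2 h3
  have := Fintype.ofFinite F
  let s : AlgebraicClosure F →+* AlgebraicClosure F :=
    (FiniteField.frobeniusAlgEquivOfAlgebraic F (AlgebraicClosure F) : AlgebraicClosure F →+* AlgebraicClosure F)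
  refine descend (algebraMap F (AlgebraicClosure F)) hF s (fun t => ?_)
    (FiniteField.frobeniusAlgEquivOfAlgebraic F (AlgebraicClosure F)).surjective (h _ ?_ ?_ ?_)
  · rw [Nat.card_eq_fintype_card]
    rfl
  · rw [← map_pow, h1, map_one]
  · rw [ev_V_one, h2]
  · rw [ev_L_one, h3]

end Cfsg.Agent.H65.E6Uniq
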